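import Cfsg.Agent.Lib.H80.CQ

set_option autoImplicit false
set_option linter.unusedSectionVars false
set_option linter.unusedVariables false

/-!
# Defect zero characters: covered characters, normal `p`-subgroups
-/

namespace H80.CQ2

open Cfsg H20.Loc H20.GA H20.Blk H20.NormQ H20.DefGrp H80.BR2 H80.BR1 H80.GE H80.CQ
open scoped ComplexConjugate

universe u
variable {K : Type u} [Group K] [Finite K] {M : Ideal AlgInt} {p : ℕ} [Fact p.Prime]

lemma isPBlock_singleton (hM : IsPModular p M) {χ : IrrCharacter K}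
    (hχ : (charDegree (χ : K → ℂ)).factorization p = (Nat.card K).factorization p) :
    IsPBlock M ({χ} : Set (IrrCharacter K)) := by
  have : M.IsPrime := (hM.2.1).isPrime
  rw [← H20.DefZero.blockOf_eq_singleton hM hχ]; exact isPBlock_blockOf χ

lemma isDef_bot [M.IsMaximal] (hM : IsPModular p M) {χ : IrrCharacter K}
    (hχ : (charDegree (χ : K → ℂ)).factorization p = (Nat.card K).factorization p) :
    IsDef p (⊤ : Subgroup K) (ebar M {χ}) ⊥ := by
  have hB := isPBlock_singleton hM hχ
  obtain ⟨D, hD⟩ := exists_isDefectGroup hM hB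
  have hcard := H20.Defect.card_defectGroup hM hB hD
  rw [(H20.DefZero.blockDefect_eq_zero_iff hM hB (Set.mem_singleton χ)).2 hχ, pow_zero] at hcard
  have : D = ⊥ := Subgroup.eq_bot_of_card_le _ hcard.le
  rw [this, isDefectGroup_iff_isDef hM hB] at hD
  exact hD

theorem covered (hM : IsPModular p M) (N : Subgroup K) [N.Normal] [Fintype N] {χ : IrrCharacter K}
    (hχ : (charDegree (χ : K → ℂ)).factorization p = (Nat.card K).factorization p)
    {θ : IrrCharacter N} (h : classInner (fun n : N => (χ : K → ℂ) n) (θ : N → ℂ) ≠ 0) :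
    (charDegree (θ : N → ℂ)).factorization p = (Nat.card N).factorization p := by
  have : M.IsMaximal := hM.2.1
  have : CharP (H20.Loc.ResF M) p := H20.Loc.charP_resF hM
  let _ : Algebra (ZMod p) (H20.Loc.ResF M) := ZMod.algebra (H20.Loc.ResF M) p
  have : Algebra.IsAlgebraic (ZMod p) (H20.Loc.ResF M) := H80.BR1.isAlgebraic_resF hM
  have hB := isPBlock_singleton hM hχ
  have hc := isPBlock_blockOf (M := M) θ
  have hcov := (H80.BR6.cov_iff hB hc).1 ⟨χ, rfl, θ, mem_blockOf_self θ, h⟩
  have hNn : (⊤ : Subgroup K) ≤ Subgroup.normalizer (N : Set K) := by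
    rw [Subgroup.normalizer_eq_top]
  obtain ⟨R, hR⟩ := exists_isDef (p := p) (isBlk_bl hc)
  obtain ⟨x, -, hx⟩ := H80.GO.cover_def_le le_top hNn (isBlk_ebar hB) (isBlk_bl hc) hcov
    (isDef_bot hM hχ) hR.pgr hR.le hR.ne
  have hRb : R = ⊥ := by
    rw [eq_bot_iff]
    refine hx.trans ?_
    rw [H80.GA.cs]
    simp
  have hD : IsDefectGroup p M (blockOf M (θ : N → ℂ)) (⊥ : Subgroup N) := by
    rw [isDefectGroup_iff_isDef' hM hc, Subgroup.map_bot]
    rwa [hRb] at hR
  have hcard := H20.Defect.card_defectGroup hM hc hD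
  rw [Subgroup.card_bot] at hcard
  have hd0 : blockDefect p (blockOf M (θ : N → ℂ)) = 0 := by
    by_contra h0
    have h1 : 1 < p ^ blockDefect p (blockOf M (θ : N → ℂ)) :=
      Nat.one_lt_pow h0 (Fact.out : p.Prime).one_lt
    omega
  exact (H20.DefZero.blockDefect_eq_zero_iff hM hc (mem_blockOf_self θ)).1 hd0

theorem normal_bot (hM : IsPModular p M) {χ : IrrCharacter K}
    (hχ : (charDegree (χ : K → ℂ)).factorization p = (Nat.card K).factorization p)
    {P : Subgroup K} [P.Normal] (hP : IsPGroup p P) : P = ⊥ := by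
  have : M.IsMaximal := hM.2.1
  have : CharP (H20.Loc.ResF M) p := H20.Loc.charP_resF hM
  let _ : Algebra (ZMod p) (H20.Loc.ResF M) := ZMod.algebra (H20.Loc.ResF M) p
  have : Algebra.IsAlgebraic (ZMod p) (H20.Loc.ResF M) := H80.BR1.isAlgebraic_resF hM
  have hB := isPBlock_singleton hM hχ
  have hNn : (⊤ : Subgroup K) ≤ Subgroup.normalizer (P : Set K) := by
    rw [Subgroup.normalizer_eq_top]
  have hb := isBlk_ebar hB
  have h1 := H80.GG.br_idem_eq hP le_top hNn hb.mem hb.idem
  obtain ⟨x, -, hx⟩ := (isDef_bot hM hχ).max P le_top hP (by rw [h1]; exact hb.ne)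
  rw [eq_bot_iff]
  refine hx.trans ?_
  rw [H80.GA.cs]
  simp

/-- the degree of a character with `Q` in its kernel -/
lemma fact_quot (Q : Subgroup K) [Q.Normal] {χ : IrrCharacter (K ⧸ Q)}
    (hdeg : (charDegree (infl Q χ : K → ℂ)).factorization p + (Nat.card Q).factorization p =
      (Nat.card K).factorization p) :
    (charDegree (χ : K ⧸ Q → ℂ)).factorization p = (Nat.card (K ⧸ Q)).factorization p := by
  rw [charDegree_infl] at hdeg
  have h1 : Nat.card K = Nat.card (K ⧸ Q) * Nat.card Q := Subgroup.card_eq_card_quotient_mul_card_subgroup Q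
  rw [h1, Nat.factorization_mul Nat.card_pos.ne' Nat.card_pos.ne', Finsupp.add_apply] at hdeg
  omega

/-- descending a defect zero character of `K ⧸ Q` to a normal subgroup `C` -/
theorem descend (hM : IsPModular p M) (Q C : Subgroup K) [Q.Normal] [C.Normal] [Fintype K]
    [Fintype C] {χ : IrrCharacter (K ⧸ Q)}
    (hχ : (charDegree (χ : K ⧸ Q → ℂ)).factorization p = (Nat.card (K ⧸ Q)).factorization p) :
    ∃ ψ : IrrCharacter (C ⧸ (Q.subgroupOf C)),
      (charDegree (ψ : C ⧸ (Q.subgroupOf C) → ℂ)).factorization p =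
        (Nat.card (C ⧸ (Q.subgroupOf C))).factorization p ∧
      classInner (fun c : C => (infl Q χ : K → ℂ) c) (infl (Q.subgroupOf C) ψ : C → ℂ) ≠ 0 := by
  classical
  set N := C.map (QuotientGroup.mk' Q) with hN
  have : N.Normal := Subgroup.Normal.map inferInstance _ (QuotientGroup.mk'_surjective Q)
  have := Fintype.ofFinite N
  have := Fintype.ofFinite (K ⧸ Q)
  obtain ⟨θ0, hθ0, hne⟩ := H18.CharQuot.exists_constituent_restrict N χ.2
  set θ : IrrCharacter N := ⟨θ0, hθ0⟩ with hθ
  have hθz := covered hM N hχ (θ := θ) hne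
  -- the surjection
  let φ : C →* N := ((QuotientGroup.mk' Q).comp C.subtype).codRestrict N (fun c => ⟨c, c.2, rfl⟩)
  have hφs : Function.Surjective φ := by
    rintro ⟨_, c, hc, rfl⟩
    exact ⟨⟨c, hc⟩, rfl⟩
  have hker : φ.ker = Q.subgroupOf C := by
    ext c
    rw [MonoidHom.mem_ker, Subgroup.mem_subgroupOf]
    constructor
    · intro h
      have := congrArg Subtype.val h
      exact (QuotientGroup.eq_one_iff (c : K)).1 this
    · intro h
      apply Subtype.ext
      exact (QuotientGroup.eq_one_iff (c : K)).2 h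
  let ι : (C ⧸ (Q.subgroupOf C)) ≃* N :=
    (QuotientGroup.quotientMulEquivOfEq hker.symm).trans
      (QuotientGroup.quotientKerEquivOfSurjective φ hφs)
  have hι : ∀ c : C, ι (c : C ⧸ (Q.subgroupOf C)) = φ c := fun c => rfl
  refine ⟨trI ι.symm θ, ?_, ?_⟩
  · have h1 : charDegree (trI ι.symm θ : C ⧸ (Q.subgroupOf C) → ℂ) = charDegree (θ : N → ℂ) := by
      have h2 := H20.Defect.charDegree_irr (trI ι.symm θ)
      rw [trI_apply, map_one, ← H20.Defect.charDegree_irr] at h2
      exact_mod_cast h2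
    rw [h1, hθz, Nat.card_congr ι.toEquiv]
  · have h1 : ∀ c : C, (infl (Q.subgroupOf C) (trI ι.symm θ) : C → ℂ) c = (θ : N → ℂ) (φ c) := by
      intro c
      rw [infl_apply, trI_apply]
      rfl
    have h2 : classInner (fun c : C => (infl Q χ : K → ℂ) c)
        (infl (Q.subgroupOf C) (trI ι.symm θ) : C → ℂ) =
        classInner (fun n : N => (χ : K ⧸ Q → ℂ) n) (θ : N → ℂ) := by
      unfold classInner
      have := Fintype.ofFinite (C ⧸ (Q.subgroupOf C))
      have h3 : ∑ g : C, (infl Q χ : K → ℂ) g * conj ((infl (Q.subgroupOf C) (trI ι.symm θ) : C → ℂ) g)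
          = Nat.card (Q.subgroupOf C) • ∑ q : C ⧸ (Q.subgroupOf C), (χ : K ⧸ Q → ℂ) (ι q) *
            conj ((θ : N → ℂ) (ι q)) := by
        rw [← sum_quot (Q.subgroupOf C) (fun q : C ⧸ (Q.subgroupOf C) => (χ : K ⧸ Q → ℂ) (ι q) *
            conj ((θ : N → ℂ) (ι q)))]
        apply Finset.sum_congr rfl
        intro g _
        rw [h1]
        rfl
      rw [h3]
      have h4 : ∑ q : C ⧸ (Q.subgroupOf C), (χ : K ⧸ Q → ℂ) (ι q) * conj ((θ : N → ℂ) (ι q)) =
          ∑ n : N, (χ : K ⧸ Q → ℂ) n * conj ((θ : N → ℂ) n) :=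
        Fintype.sum_equiv ι.toEquiv _ _ (fun q => rfl)
      rw [h4, Subgroup.card_eq_card_quotient_mul_card_subgroup (Q.subgroupOf C),
        Nat.card_congr ι.toEquiv]
      have h5 : (Nat.card (Q.subgroupOf C) : ℂ) ≠ 0 := by exact_mod_cast Nat.card_pos.ne'
      rw [nsmul_eq_mul]
      push_cast
      field_simp
    rw [h2]; exact hne

end H80.CQ2
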