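import Cfsg.Agent.Lib.H80.BR7
import Cfsg.Agent.Lib.H80.GT
import Cfsg.Agent.Lib.H20.PC
import Cfsg.Agent.Lib.H20.DefZero
import Cfsg.Agent.Lib.H18.CharQuot

set_option autoImplicit false
set_option linter.unusedSectionVars false
set_option linter.unusedVariables false

/-!
# Defect zero characters of quotients by `p`-subgroups
-/

namespace H80.CQ

open Cfsg H20.Loc H20.GA H20.Blk H20.NormQ H20.DefGrp
open scoped ComplexConjugate

universe u
variable {K : Type u} [Group K] [Finite K] {M : Ideal AlgInt} {p : ℕ} [Fact p.Prime]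

lemma charDegree_infl (N : Subgroup K) [N.Normal] (χ : IrrCharacter (K ⧸ N)) :
    charDegree (infl N χ : K → ℂ) = charDegree (χ : K ⧸ N → ℂ) := by
  have h1 := H20.Defect.charDegree_irr (infl N χ)
  have h2 := H20.Defect.charDegree_irr χ
  rw [infl_apply] at h1
  have h3 : ((1 : K) : K ⧸ N) = 1 := rfl
  rw [h3, ← h2] at h1
  exact_mod_cast h1

/-- centralizers of elements in the support of a defect zero block have order prime to `p` -/
lemma cent_trivial (hM : IsPModular p M) {ψ : IrrCharacter K}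
    (hψ : (charDegree (ψ : K → ℂ)).factorization p = (Nat.card K).factorization p) {h : K}
    (hh : ¬ MemLocalIdeal M (blockCoeff {ψ} h)) {Q : Subgroup K} (hQ : IsPGroup p Q)
    (hQh : Q ≤ Subgroup.centralizer ({h} : Set K)) : Q = ⊥ := by
  have := hM.2.1
  have hB : IsPBlock M ({ψ} : Set (IrrCharacter K)) := by
    rw [← H20.DefZero.blockOf_eq_singleton hM hψ]; exact isPBlock_blockOf ψ
  obtain ⟨D, hD⟩ := exists_isDefectGroup hM hB
  have hcard := H20.Defect.card_defectGroup hM hB hD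
  rw [(H20.DefZero.blockDefect_eq_zero_iff hM hB (Set.mem_singleton ψ)).2 hψ, pow_zero] at hcard
  obtain ⟨g, hg, P, hP⟩ := hD
  obtain ⟨x, hgx, hQx⟩ := sylow_le_of_blockCoeff hM hB ⟨ψ, rfl, hg.2.2 ψ rfl⟩ hh hQ hQh
  obtain ⟨y, hy⟩ := exists_conj_le hgx P hQ hQx
  have hc : Nat.card (sylC g P) = 1 := by rw [hP] at hcard; exact hcard
  have h1 : Nat.card Q ≤ 1 := by
    have := Subgroup.card_le_of_le hy
    rwa [card_map_conj, hc] at this
  exact Subgroup.eq_bot_of_card_le _ h1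

theorem def_le (hM : IsPModular p M) (Z : Subgroup K) [Z.Normal] (hZ : IsPGroup p Z)
    (hC : ∀ x : K, ¬ p ∣ orderOf x → x ∈ Subgroup.centralizer (Z : Set K))
    (ψ : IrrCharacter (K ⧸ Z))
    (hψ : (charDegree (ψ : K ⧸ Z → ℂ)).factorization p = (Nat.card (K ⧸ Z)).factorization p)
    {b : Set (IrrCharacter K)} (hb : IsPBlock M b) (hψb : infl Z ψ ∈ b) {D : Subgroup K}
    (hD : IsDefectGroup p M b D) : D ≤ Z := by
  have := hM.2.1
  have : M.IsPrime := this.isPrime
  have hw : pushZ Z (eB b) = eB ({ψ} : Set (IrrCharacter (K ⧸ Z))) := by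
    apply eq_of_omega
    intro χ
    rw [omega_pushZ]
    by_cases h : infl Z χ ∈ b
    · rw [omega_eB_mem h]
      have h1 : SameBlock M (infl Z χ : K → ℂ) (infl Z ψ : K → ℂ) :=
        isPBlock_sameBlock hb h hψb
      have h2 := (H20.PC.sameBlock_infl_iff Z hM hZ hC χ ψ).2 h1
      have h3 : χ ∈ blockOf M (ψ : K ⧸ Z → ℂ) := (isPBlock_mem_iff (isPBlock_blockOf ψ)
        (mem_blockOf_self ψ) χ).2 (sameBlock_symm h2)
      rw [H20.DefZero.blockOf_eq_singleton hM hψ] at h3
      rw [omega_eB_mem h3]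
    · rw [omega_eB_notMem h, omega_eB_notMem]
      rintro rfl
      exact h hψb
  obtain ⟨g, hg, P, hP⟩ := hD
  have hreg := H20.Orth.regular_of_isDefectClass hM hb hg
  have hcoef : blockCoeff b g = blockCoeff {ψ} (g : K ⧸ Z) := by
    have h1 := H20.PC.zc_push_regular Z hZ hC (z := eB b) (fun x hx => by
      exact H20.Orth.blockCoeff_eq_zero hM (isUnion_of_isPBlock hb) hx) hreg
    rw [hw] at h1
    exact h1.symm
  have hne : ¬ MemLocalIdeal M (blockCoeff {ψ} (g : K ⧸ Z)) := by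
    rw [← hcoef]; exact hg.2.1
  have hDp : IsPGroup p D := by rw [hP]; exact isPGroup_sylC g P
  have hDc : D.map (QuotientGroup.mk' Z) ≤ Subgroup.centralizer ({(g : K ⧸ Z)} : Set (K ⧸ Z)) := by
    rintro _ ⟨d, hd, rfl⟩
    have h1 : d ∈ Subgroup.centralizer ({g} : Set K) := by
      rw [hP] at hd; exact sylC_le g P hd
    rw [Subgroup.mem_centralizer_singleton_iff] at h1 ⊢
    change (d : K ⧸ Z) * (g : K ⧸ Z) = (g : K ⧸ Z) * (d : K ⧸ Z)
    rw [← QuotientGroup.mk_mul, ← QuotientGroup.mk_mul, h1]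
  have h2 := cent_trivial hM hψ hne (hDp.map _) hDc
  intro d hd
  have h3 : (QuotientGroup.mk' Z) d ∈ D.map (QuotientGroup.mk' Z) := ⟨d, hd, rfl⟩
  rw [h2, Subgroup.mem_bot] at h3
  exact (QuotientGroup.eq_one_iff d).1 h3

end H80.CQ
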