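import Cfsg.Agent.Lib.H80.SU6

set_option autoImplicit false
set_option linter.unusedSectionVars false
set_option linter.unusedVariables false
set_option linter.style.haveILetI false

/-!
# The trace formula for subsections
-/

namespace H80.SU7

open Cfsg H20.Loc H20.GA H20.Blk H20.Orth H80.SU6
open scoped ComplexConjugate

universe u
variable {G : Type u} [Group G] [Fintype G] {M : Ideal AlgInt} {p : ℕ}

open Classical in
/-- the blocks of a group as a finset -/
noncomputable def Bl (M : Ideal AlgInt) (K : Type u) [Group K] [Finite K] :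
    Finset (Set (IrrCharacter K)) :=
  haveI := Fintype.ofFinite (Set (IrrCharacter K))
  Finset.univ.filter (fun b => IsPBlock M b)

lemma mem_Bl {K : Type u} [Group K] [Finite K] {b : Set (IrrCharacter K)} :
    b ∈ Bl M K ↔ IsPBlock M b := by
  classical
  unfold Bl
  simp

section grp
variable {K : Type u} [Group K] [Fintype K] [Fintype (IrrCharacter K)]

lemma bp_sum (b : Set (IrrCharacter K)) [DecidablePred (· ∈ b)] (f : K → ℂ) (y : K) :
    blockPart b f y = ∑ ψ : IrrCharacter K,
      if ψ ∈ b then classInner f (ψ : K → ℂ) * (ψ : K → ℂ) y else 0 := by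
  classical
  have h1 : blockPart b f y = proj b f y := by
    unfold blockPart proj
    congr 1
    funext ψ
    congr 1
    funext _
    rw [H18.CharOrtho.inner_fintype]
  rw [h1, proj_eq_sum]
  refine Finset.sum_congr rfl fun ψ _ => ?_
  split_ifs <;> rfl

lemma sum_bp [M.IsPrime] {f : K → ℂ} (hf : IsClassFunction K f) (y : K) :
    ∑ b ∈ Bl M K, blockPart b f y = f y := by
  classical
  simp_rw [bp_sum]
  rw [Finset.sum_comm]
  conv_rhs => rw [H18.CharOrtho.mem_classFun_expand hf, Finset.sum_apply]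
  refine Finset.sum_congr rfl fun ψ _ => ?_
  rw [Finset.sum_eq_single (blockOf M (ψ : K → ℂ))]
  · rw [if_pos (mem_blockOf_self ψ)]; rfl
  · intro b hb hne
    rw [if_neg]
    intro h
    exact hne (isPBlock_eq (mem_Bl.1 hb) h)
  · intro h
    exact absurd (mem_Bl.2 (isPBlock_blockOf ψ)) h

/-- different blocks are orthogonal on `p`-regular elements -/
lemma bp_orth (hM : IsPModular p M) {b b' : Set (IrrCharacter K)} (hb : IsPBlock M b)
    (hb' : IsPBlock M b') (hne : b ≠ b') (f f' : K → ℂ) [DecidablePred fun y : K => p ∣ orderOf y] :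
    ∑ y : K, (if p ∣ orderOf y then 0 else blockPart b f y * conj (blockPart b' f' y)) = 0 := by
  classical
  haveI := pm_isPrime hM
  have h1 : ∀ y : K, (if p ∣ orderOf y then 0 else blockPart b f y * conj (blockPart b' f' y)) =
      ∑ ψ : IrrCharacter K, ∑ ψ' : IrrCharacter K, (if ψ ∈ b ∧ ψ' ∈ b' then
        classInner f (ψ : K → ℂ) * conj (classInner f' (ψ' : K → ℂ)) *
          (reg p (ψ : K → ℂ) y * conj ((ψ' : K → ℂ) y)) else 0) := by
    intro y
    split_ifs with hy
    · symm
      refine Finset.sum_eq_zero fun ψ _ => Finset.sum_eq_zero fun ψ' _ => ?_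
      rw [reg_not hy]; simp
    · rw [bp_sum, bp_sum, map_sum, Finset.sum_mul_sum]
      refine Finset.sum_congr rfl fun ψ _ => Finset.sum_congr rfl fun ψ' _ => ?_
      rw [reg_of hy]
      by_cases h : ψ ∈ b
      · by_cases h' : ψ' ∈ b'
        · rw [if_pos h, if_pos h', if_pos ⟨h, h'⟩, map_mul]; ring
        · rw [if_neg h', map_zero, mul_zero, if_neg (fun hh => h' hh.2)]
      · rw [if_neg h, zero_mul, if_neg (fun hh => h hh.1)]
  simp_rw [h1]
  rw [Finset.sum_comm]
  refine Finset.sum_eq_zero fun ψ _ => ?_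
  rw [Finset.sum_comm]
  refine Finset.sum_eq_zero fun ψ' _ => ?_
  by_cases h : ψ ∈ b ∧ ψ' ∈ b'
  · simp_rw [if_pos h]
    rw [← Finset.mul_sum]
    have h2 : ∑ y : K, reg p (ψ : K → ℂ) y * conj ((ψ' : K → ℂ) y) = 0 := by
      have h3 : classInner (reg p (ψ : K → ℂ)) (ψ' : K → ℂ) = 0 := by
        apply inner_reg_eq_zero hM
        intro hs
        apply hne
        exact isPBlock_eq_of_mem hb hb' ((isPBlock_mem_iff hb h.1 ψ').2 hs) h.2
      rw [classInner] at h3
      have hc : (Nat.card K : ℂ)⁻¹ ≠ 0 := inv_ne_zero (by exact_mod_cast Nat.card_pos.ne')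
      exact (mul_eq_zero.1 h3).resolve_left hc
    rw [h2, mul_zero]
  · simp_rw [if_neg h]
    simp

end grp

section sub
variable {K : Subgroup G} [Fintype K] [Fintype (IrrCharacter K)] [Fintype (IrrCharacter G)]

theorem rank_sum (hM : IsPModular p M) {b : Set (IrrCharacter K)} (hb : IsPBlock M b)
    [DecidablePred (· ∈ b)] [DecidablePred fun y : K => p ∣ orderOf y] :
    ∑ y : K, (if p ∣ orderOf y then 0 else
      ∑ ψ : IrrCharacter K, if ψ ∈ b then (ψ : K → ℂ) y * conj ((ψ : K → ℂ) y) else 0) =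
      (Nat.card K : ℂ) * (blockRank p b : ℂ) := by
  rw [RK.rank_formula hM hb]
  refine Finset.sum_congr rfl fun y _ => ?_
  split_ifs with hy
  · symm
    refine Finset.sum_eq_zero fun ψ _ => ?_
    rw [reg_not hy]; simp
  · refine Finset.sum_congr (by ext; simp) fun ψ _ => ?_
    rw [reg_of hy]
    split_ifs <;> rfl

/-- trace formula at a `p`-element `x` -/
theorem trace_x (hM : IsPModular p M) {x : G} (hKx : K = Subgroup.centralizer ({x} : Set G))
    (hx : ∃ k : ℕ, orderOf x = p ^ k) {B : Set (IrrCharacter G)} (hB : IsPBlock M B)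
    [DecidablePred (· ∈ B)] (Λ : Set (IrrCharacter K) → ℂ)
    [DecidablePred fun b : Set (IrrCharacter K) => IsInducedBlock M K b B]
    [DecidablePred fun y : K => p ∣ orderOf y] :
    ∑ y : K, (if p ∣ orderOf y then 0 else ∑ χ : IrrCharacter G, if χ ∈ B then
      (∑ b ∈ Bl M K, Λ b * blockPart b (tr K x (χ : G → ℂ)) y) * conj ((χ : G → ℂ) (x * y)) else 0) =
    ∑ b ∈ Bl M K, if IsInducedBlock M K b B then Λ b * ((Nat.card K : ℂ) * (blockRank p b : ℂ))
      else 0 := by
  classical
  haveI := pm_isPrime hM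
  have hKc : ∀ c ∈ K, c * x = x * c := fun c hc => by
    rw [hKx, Subgroup.mem_centralizer_singleton_iff] at hc; exact hc
  -- expand everything
  have h1 : ∀ (χ : IrrCharacter G), ∑ y : K, (if p ∣ orderOf y then 0 else
      (∑ b ∈ Bl M K, Λ b * blockPart b (tr K x (χ : G → ℂ)) y) * conj ((χ : G → ℂ) (x * y))) =
      ∑ b ∈ Bl M K, Λ b * ∑ y : K, (if p ∣ orderOf y then 0 else
        blockPart b (tr K x (χ : G → ℂ)) y * conj (blockPart b (tr K x (χ : G → ℂ)) y)) := by
    intro χ
    have hcl := tr_class hKc (H18.CharBasic.isClassFunction_of_isIrr χ.2)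
    have h2 : ∀ y : K, (χ : G → ℂ) (x * y) = ∑ b ∈ Bl M K, blockPart b (tr K x (χ : G → ℂ)) y :=
      fun y => (sum_bp hcl y).symm
    have h3 : ∀ y : K, (if p ∣ orderOf y then 0 else
      (∑ b ∈ Bl M K, Λ b * blockPart b (tr K x (χ : G → ℂ)) y) * conj ((χ : G → ℂ) (x * y))) =
      ∑ b ∈ Bl M K, ∑ b' ∈ Bl M K, Λ b * (if p ∣ orderOf y then 0 else
        blockPart b (tr K x (χ : G → ℂ)) y * conj (blockPart b' (tr K x (χ : G → ℂ)) y)) := by
      intro y
      split_ifs
      · simp
      · rw [h2 y, map_sum, Finset.sum_mul_sum]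
        refine Finset.sum_congr rfl fun b _ => Finset.sum_congr rfl fun b' _ => ?_
        ring
    simp_rw [h3]
    rw [Finset.sum_comm]
    refine Finset.sum_congr rfl fun b hb => ?_
    rw [Finset.sum_comm, Finset.sum_eq_single b]
    · rw [Finset.mul_sum]
    · intro b' hb' hne
      rw [← Finset.mul_sum, bp_orth hM (mem_Bl.1 hb) (mem_Bl.1 hb') (Ne.symm hne), mul_zero]
    · intro h; exact absurd hb h
  have h4 : ∑ y : K, (if p ∣ orderOf y then 0 else ∑ χ : IrrCharacter G, if χ ∈ B then
      (∑ b ∈ Bl M K, Λ b * blockPart b (tr K x (χ : G → ℂ)) y) * conj ((χ : G → ℂ) (x * y)) else 0) =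
      ∑ χ : IrrCharacter G, if χ ∈ B then ∑ b ∈ Bl M K, Λ b * ∑ y : K, (if p ∣ orderOf y then 0 else
        blockPart b (tr K x (χ : G → ℂ)) y * conj (blockPart b (tr K x (χ : G → ℂ)) y)) else 0 := by
    have h5 : ∀ y : K, (if p ∣ orderOf y then 0 else ∑ χ : IrrCharacter G, if χ ∈ B then
      (∑ b ∈ Bl M K, Λ b * blockPart b (tr K x (χ : G → ℂ)) y) * conj ((χ : G → ℂ) (x * y)) else 0) =
      ∑ χ : IrrCharacter G, if χ ∈ B then (if p ∣ orderOf y then 0 else
        (∑ b ∈ Bl M K, Λ b * blockPart b (tr K x (χ : G → ℂ)) y) * conj ((χ : G → ℂ) (x * y)))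
        else 0 := by
      intro y
      split_ifs
      · simp
      · rfl
    simp_rw [h5]
    rw [Finset.sum_comm]
    refine Finset.sum_congr rfl fun χ _ => ?_
    by_cases hχ : χ ∈ B
    · simp_rw [if_pos hχ]
      exact h1 χ
    · simp_rw [if_neg hχ]
      simp
  rw [h4]
  have h6 : ∀ b ∈ Bl M K, (∑ χ : IrrCharacter G, if χ ∈ B then ∑ y : K, (if p ∣ orderOf y then 0 else
        blockPart b (tr K x (χ : G → ℂ)) y * conj (blockPart b (tr K x (χ : G → ℂ)) y)) else 0) =
        if IsInducedBlock M K b B then (Nat.card K : ℂ) * (blockRank p b : ℂ) else 0 := by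
    intro b hb
    split_ifs with hind
    · rw [← rank_sum hM (mem_Bl.1 hb)]
      have h7 : ∀ χ : IrrCharacter G, (if χ ∈ B then ∑ y : K, (if p ∣ orderOf y then 0 else
        blockPart b (tr K x (χ : G → ℂ)) y * conj (blockPart b (tr K x (χ : G → ℂ)) y)) else 0) =
        ∑ y : K, if p ∣ orderOf y then 0 else (if χ ∈ B then
          blockPart b (tr K x (χ : G → ℂ)) y * conj (blockPart b (tr K x (χ : G → ℂ)) y) else 0) := by
        intro χ
        split_ifs
        · rfl
        · simp
      simp_rw [h7]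
      rw [Finset.sum_comm]
      refine Finset.sum_congr rfl fun y _ => ?_
      split_ifs with hy
      · simp
      · exact col_B hM hKx hx hind hy hy
    · refine Finset.sum_eq_zero fun χ _ => ?_
      split_ifs with hχ
      · refine Finset.sum_eq_zero fun y _ => ?_
        split_ifs with hy
        · rfl
        · have h8 : blockPart b (tr K x (χ : G → ℂ)) y = 0 := by
            subst hKx
            exact H19.BrMap2.second_main hM x hx hB hχ (mem_Bl.1 hb) hind y hy
          rw [h8, zero_mul]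
      · rfl
  calc _ = ∑ b ∈ Bl M K, Λ b * (∑ χ : IrrCharacter G, if χ ∈ B then
        ∑ y : K, (if p ∣ orderOf y then 0 else
        blockPart b (tr K x (χ : G → ℂ)) y * conj (blockPart b (tr K x (χ : G → ℂ)) y)) else 0) := by
        simp_rw [Finset.mul_sum]
        rw [Finset.sum_comm]
        refine Finset.sum_congr rfl fun χ _ => ?_
        split_ifs
        · refine Finset.sum_congr rfl fun b _ => ?_
          rw [Finset.mul_sum]
        · simp
    _ = _ := by
        refine Finset.sum_congr rfl fun b hb => ?_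
        rw [h6 b hb]
        split_ifs
        · rfl
        · rw [mul_zero]

end sub

end H80.SU7
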