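import Cfsg.Agent.Lib.H80.SU7
import Cfsg.Agent.Lib.H80.SU4
import Cfsg.Prelude.Def_BlockRank

set_option autoImplicit false
set_option linter.unusedSectionVars false
set_option linter.unusedVariables false
set_option linter.style.haveILetI false

/-!
# Counting characters through subsections
-/

namespace H80.SU8

open Cfsg MonoidAlgebra H20.Loc H20.GA H20.Blk H20.Orth H80.SU6 H80.SU7
open H80.GA H80.GB H80.GC H80.GD H80.GE H80.GH H80.GJ H80.BR1 H80.BR2 H80.BR3 H80.BR4
open H80.SU1
open scoped ComplexConjugate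

universe u

section trI
variable {K K' : Type u} [Group K] [Group K'] {p : ℕ}

lemma pRegularPart_trI (φ : K ≃* K') (χ : IrrCharacter K) (x : K) :
    pRegularPart p (trI φ χ : K' → ℂ) (φ x) = pRegularPart p (χ : K → ℂ) x := by
  unfold pRegularPart
  have h1 : IsPRegular p (φ x) ↔ IsPRegular p x := by
    unfold IsPRegular
    rw [MulEquiv.orderOf_eq]
  by_cases h : IsPRegular p x
  · rw [if_pos h, if_pos (h1.2 h)]
    show (χ : K → ℂ) (φ.symm (φ x)) = (χ : K → ℂ) x
    rw [MulEquiv.symm_apply_apply]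
  · rw [if_neg h, if_neg (fun hh => h (h1.1 hh))]

lemma blockRank_trI (φ : K ≃* K') (f : Set (IrrCharacter K)) :
    blockRank p (trI φ '' f) = blockRank p f := by
  let E : (K → ℂ) ≃ₗ[ℂ] (K' → ℂ) := LinearEquiv.funCongrLeft ℂ ℂ φ.symm.toEquiv
  have hE : ∀ χ : IrrCharacter K, E (pRegularPart p (χ : K → ℂ)) =
      pRegularPart p (trI φ χ : K' → ℂ) := by
    intro χ
    funext y
    obtain ⟨x, rfl⟩ := φ.surjective y
    rw [pRegularPart_trI]
    show pRegularPart p (χ : K → ℂ) (φ.symm (φ x)) = _
    rw [MulEquiv.symm_apply_apply]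
  unfold blockRank
  have hset : (fun χ : IrrCharacter K' => pRegularPart p (χ : K' → ℂ)) '' (trI φ '' f) =
      E.toLinearMap '' ((fun χ : IrrCharacter K => pRegularPart p (χ : K → ℂ)) '' f) := by
    rw [Set.image_image, Set.image_image]
    apply Set.image_congr
    intro χ _
    exact (hE χ).symm
  rw [hset, ← Submodule.map_span]
  exact (LinearEquiv.finrank_eq (Submodule.equivMapOfInjective E.toLinearMap E.injective _)).symm

end trI

variable {G : Type u} [Group G] [Fintype G] {M : Ideal AlgInt} {p : ℕ} [M.IsMaximal]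

open Classical in
/-- rank of the block of `K` with idempotent `f` -/
noncomputable def rk (p : ℕ) (K : Subgroup G) (f : MonoidAlgebra (ResF M) G) : ℕ :=
  if h : ∃ b : Set (IrrCharacter K), IsPBlock M b ∧ bl M K b = f then blockRank p h.choose else 0

lemma rk_bl {K : Subgroup G} {b : Set (IrrCharacter K)} (hb : IsPBlock M b) :
    rk p K (bl M K b) = blockRank p b := by
  have h : ∃ b' : Set (IrrCharacter K), IsPBlock M b' ∧ bl M K b' = bl M K b := ⟨b, hb, rfl⟩
  unfold rk
  rw [dif_pos h]
  rw [bl_inj h.choose_spec.1 hb h.choose_spec.2]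

lemma rk_cj (g : G) (K : Subgroup G) (f : MonoidAlgebra (ResF M) G) :
    rk p (cs g K) (cj g f) = rk p K f := by
  by_cases h : ∃ b : Set (IrrCharacter K), IsPBlock M b ∧ bl M K b = f
  · obtain ⟨b, hb, rfl⟩ := h
    rw [← bl_conjSet (g := g) (K := K) (K' := cs g K) rfl b, rk_bl (isPBlock_conjSet rfl hb),
      rk_bl hb, conjSet_eq g K (cs g K) rfl, blockRank_trI]
  · have h' : ¬ ∃ b : Set (IrrCharacter (cs g K)), IsPBlock M b ∧ bl M (cs g K) b = cj g f := by
      rintro ⟨b, hb, hbf⟩
      apply h
      have h1 := isBlk_bl hb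
      rw [hbf] at h1
      have h2 := blk_cj h1 g⁻¹
      rw [cs_inv_cs, cj_inv_cj] at h2
      exact exists_bl h2
    unfold rk
    rw [dif_neg h, dif_neg h']

omit [M.IsMaximal] in
/-- sums over `G` through `p`-parts -/
theorem sum_parts (hp : p.Prime) (F : G → ℂ) [DecidablePred fun x : G => ∃ k : ℕ, orderOf x = p ^ k]
    [∀ x : G, Fintype (Subgroup.centralizer ({x} : Set G))]
    [∀ x : G, DecidablePred fun y : Subgroup.centralizer ({x} : Set G) => p ∣ orderOf y] :
    ∑ g : G, F g = ∑ x : G, if (∃ k : ℕ, orderOf x = p ^ k) then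
      ∑ y : Subgroup.centralizer ({x} : Set G), (if p ∣ orderOf y then 0 else F (x * y)) else 0 := by
  classical
  choose z hz using fun g : G => H19.Second.exists_isPPart hp g
  rw [← Finset.sum_fiberwise (s := Finset.univ) (g := z) (f := F)]
  refine Finset.sum_congr rfl fun x _ => ?_
  split_ifs with hx
  · symm
    rw [← Finset.sum_filter_ne_zero]
    have : ∑ y : Subgroup.centralizer ({x} : Set G), (if p ∣ orderOf y then 0 else F (x * y)) =
        ∑ y ∈ Finset.univ.filter (fun y : Subgroup.centralizer ({x} : Set G) => ¬ p ∣ orderOf y),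
          F (x * y) := by
      rw [Finset.sum_filter]
      refine Finset.sum_congr rfl fun y _ => ?_
      split_ifs <;> simp_all
    rw [Finset.sum_filter_ne_zero, this]
    refine Finset.sum_bij (fun y _ => x * (y : G)) ?_ ?_ ?_ ?_
    · intro y hy
      rw [Finset.mem_filter] at hy ⊢
      refine ⟨Finset.mem_univ _, ?_⟩
      have h1 := isPPart_of (p := p) (fun c hc => Subgroup.mem_centralizer_singleton_iff.1 hc) hx hy.2
      exact H19.Second.isPPart_unique hp (hz _) h1
    · intro y _ y' _ h
      exact Subtype.ext (mul_left_cancel h)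
    · intro g hg
      rw [Finset.mem_filter] at hg
      obtain ⟨w, hw1, hw2, hw3, hw4⟩ := hz g
      rw [hg.2] at hw1 hw2
      refine ⟨⟨w, ?_⟩, ?_, hw1⟩
      · rw [Subgroup.mem_centralizer_singleton_iff]; exact hw2.eq.symm
      · rw [Finset.mem_filter]
        refine ⟨Finset.mem_univ _, ?_⟩
        rwa [← Subgroup.orderOf_coe]
    · intro y _; rfl
  · refine Finset.sum_eq_zero fun g hg => ?_
    exfalso
    rw [Finset.mem_filter] at hg
    obtain ⟨w, hw1, hw2, hw3, hw4⟩ := hz g
    rw [hg.2] at hw3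
    exact hx hw3

end H80.SU8
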