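import Cfsg.Agent.Lib.H85.VanP3

/-!
# Solvable groups in which all vanishing `p`-singular elements are `p`-elements, part 1
-/

set_option autoImplicit false

namespace H80.VO1

open Cfsg H85.VanP

universe u

theorem exists_section (p : ℕ) [hp : Fact p.Prime] : ∀ (m : ℕ) (G : Type u) [Group G] [Finite G],
    Nat.card G = m → Group.IsSolvable G → pCore p G = ⊥ → p ∣ Nat.card G →
    ∃ M T : Subgroup G, M.Normal ∧ T.Normal ∧ M ≤ T ∧ ¬ T ≤ M ∧ ¬ p ∣ Nat.card M ∧
      (∀ t ∈ T, ∃ k : ℕ, t ^ p ^ k ∈ M) ∧ ∀ t ∈ T, t ∉ M → Van t := by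
  intro m
  induction m using Nat.strong_induction_on with
  | _ m ih =>
  intro G _ _ hm hs hO hd
  have hnt : Nontrivial G := by
    rw [← Finite.one_lt_card_iff_nontrivial]
    exact lt_of_lt_of_le hp.out.one_lt (Nat.le_of_dvd Nat.card_pos hd)
  obtain ⟨q, _, N, hN, hN1, _, hNc⟩ := H2.Solv.exists_normal_abelian_pgroup G hs
  have hNab : ∀ a ∈ N, ∀ b ∈ N, a * b = b * a := fun a ha b hb =>
    congrArg Subtype.val (hNc.is_comm.comm (⟨a, ha⟩ : N) ⟨b, hb⟩)
  have hNp := not_dvd_card_of_abelian (p := p) N hNab hO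
  have h2 : p ∣ Nat.card (G ⧸ N) := by
    rw [Subgroup.card_eq_card_quotient_mul_card_subgroup N] at hd
    exact (hp.out.dvd_mul.1 hd).resolve_right hNp
  by_cases h3 : pCore p (G ⧸ N) = ⊥
  · obtain ⟨M, T, hM, hT, hMT, hTM, hMp, hk, hv⟩ := ih _ (by rw [← hm]; exact card_quot_lt N hN1) (G ⧸ N) rfl
      inferInstance h3 h2
    refine ⟨M.comap (QuotientGroup.mk' N), T.comap (QuotientGroup.mk' N), inferInstance, inferInstance,
      Subgroup.comap_mono hMT, ?_, ?_, ?_, ?_⟩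
    · intro h
      exact hTM ((Subgroup.comap_le_comap_of_surjective (QuotientGroup.mk'_surjective N)).1 h)
    · rw [H1.Cores.card_comap_mk', hp.out.dvd_mul]
      rintro (h | h)
      · exact hNp h
      · exact hMp h
    · intro t ht
      obtain ⟨k, hk⟩ := hk _ ht
      exact ⟨k, by rw [Subgroup.mem_comap, map_pow]; exact hk⟩
    · intro t ht htM
      exact van_of_quot N (hv _ ht htM)
  · refine ⟨N, (Zq p N).comap (QuotientGroup.mk' N), hN, inferInstance, ?_, ?_, hNp, ?_, ?_⟩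
    · intro n hn
      show QuotientGroup.mk' N n ∈ Zq p N
      have : QuotientGroup.mk' N n = 1 := (QuotientGroup.eq_one_iff n).2 hn
      rw [this]; exact Subgroup.one_mem _
    · intro h
      obtain ⟨z, hz, hz1⟩ := exists_ne_one (Zq_ne_bot p N h3)
      obtain ⟨g, rfl⟩ := QuotientGroup.mk'_surjective N z
      exact hz1 ((QuotientGroup.eq_one_iff g).2 (h hz))
    · intro t ht
      obtain ⟨k, hk⟩ := Zq_pgroup p N ⟨QuotientGroup.mk' N t, ht⟩
      refine ⟨k, ?_⟩
      rw [← QuotientGroup.eq_one_iff]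
      exact congrArg Subtype.val hk
    · intro t ht htN
      exact (section_van N hNab hO (g := t) ht fun h => htN ((QuotientGroup.eq_one_iff t).1 h)).1

section two

variable {G : Type u} [Group G]

/-- the two properties -/
structure KK (p : ℕ) (G : Type u) [Group G] : Prop where
  K : ∀ g : G, Van g → p ∣ orderOf g → ∃ k : ℕ, g ^ p ^ k = 1
  K2 : ∀ g : G, Van g → p ∣ orderOf g → Van (g ^ p) → g ^ p = 1

theorem KK.quot {p : ℕ} (h : KK p G) (N : Subgroup G) [N.Normal] : KK p (G ⧸ N) := by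
  constructor
  · intro g hg hpg
    obtain ⟨g, rfl⟩ := QuotientGroup.mk'_surjective N g
    obtain ⟨k, hk⟩ := h.K g (van_of_quot N hg) (hpg.trans (orderOf_map_dvd _ g))
    exact ⟨k, by rw [← map_pow, hk, map_one]⟩
  · intro g hg hpg hgp
    obtain ⟨g, rfl⟩ := QuotientGroup.mk'_surjective N g
    rw [← map_pow] at hgp ⊢
    rw [h.K2 g (van_of_quot N hg) (hpg.trans (orderOf_map_dvd _ g)) (van_of_quot N hgp), map_one]

/-- fixed point freeness -/
theorem fpf [Finite G] {p : ℕ} [hp : Fact p.Prime] (h : KK p G) {N : Subgroup G} (hNp : ¬ p ∣ Nat.card N) {b : G}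
    (hb : ∀ n ∈ N, Van (b * n) ∧ p ∣ orderOf (b * n)) : N ⊓ Subgroup.centralizer {b} = ⊥ := by
  rw [Subgroup.eq_bot_iff_forall]
  rintro n ⟨hn, hnc⟩
  have hc : Commute b n := Subgroup.mem_centralizer_iff.1 hnc b rfl
  obtain ⟨k, hk⟩ := h.K _ (hb n hn).1 (hb n hn).2
  have hb1 := hb 1 N.one_mem
  rw [mul_one] at hb1
  obtain ⟨j, hj⟩ := h.K _ hb1.1 hb1.2
  have h1 : n ^ p ^ (k + j) = 1 := by
    have h2 : (b * n) ^ p ^ (k + j) = 1 := by rw [pow_add, pow_mul, hk, one_pow]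
    have h3 : b ^ p ^ (k + j) = 1 := by rw [pow_add, mul_comm, pow_mul, hj, one_pow]
    rw [hc.mul_pow, h3, one_mul] at h2
    exact h2
  have h8 : orderOf n ∣ p ^ (k + j) := orderOf_dvd_of_pow_eq_one h1
  have h9 : orderOf n ∣ Nat.card N := by
    rw [← Subgroup.orderOf_mk n hn]; exact orderOf_dvd_natCard _
  have h10 : (p ^ (k + j)).Coprime (Nat.card N) :=
    Nat.Coprime.pow_left _ ((Nat.Prime.coprime_iff_not_dvd hp.out).2 hNp)
  exact orderOf_eq_one_iff.1 (Nat.eq_one_of_dvd_coprimes h10 h8 h9)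

/-- a cyclic subgroup of exponent `p` is generated by each of its nontrivial elements -/
theorem mem_zpowers_of_cyclic [Finite G] {p : ℕ} [hp : Fact p.Prime] {A : Subgroup G}
    (hA : IsCyclic A) (h : ∀ a ∈ A, a ^ p = 1) {a b : G} (ha : a ∈ A) (ha1 : a ≠ 1) (hb : b ∈ A) :
    b ∈ Subgroup.zpowers a := by
  have hcard : Nat.card A ∣ p := by
    obtain ⟨g, hg⟩ := hA.exists_generator
    rw [← orderOf_eq_card_of_forall_mem_zpowers hg]
    apply orderOf_dvd_of_pow_eq_one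
    exact Subtype.ext (h g g.2)
  have hle : Subgroup.zpowers a ≤ A := by rw [Subgroup.zpowers_le]; exact ha
  have hne : Nat.card (Subgroup.zpowers a) ≠ 1 := by
    rw [Nat.card_zpowers]
    intro h1
    exact ha1 (orderOf_eq_one_iff.1 h1)
  have h2 : Nat.card (Subgroup.zpowers a) ∣ Nat.card A := Subgroup.card_dvd_of_le hle
  have h3 : Nat.card (Subgroup.zpowers a) = p :=
    ((Nat.dvd_prime hp.out).1 (h2.trans hcard)).resolve_left hne
  have h4 : Nat.card A ≤ Nat.card (Subgroup.zpowers a) := by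
    rw [h3]; exact Nat.le_of_dvd hp.out.pos hcard
  rw [Subgroup.eq_of_le_of_card_ge hle h4]
  exact hb

/-- an abelian normal-order-`p` group fixed-point argument: no two independent commuting elements of order `p` -/
theorem no_rank_two [Finite G] {p : ℕ} [hp : Fact p.Prime] (h : KK p G) {N : Subgroup G} [hN : N.Normal]
    (hNp : ¬ p ∣ Nat.card N) (hNab : ∀ a ∈ N, ∀ b ∈ N, a * b = b * a) (hN1 : N ≠ ⊥) {x a : G}
    (hxa : x * a = a * x) (hx : x ^ p = 1) (ha : a ^ p = 1) (ha1 : a ≠ 1)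
    (hv : ∀ i j : ℤ, x ^ i * a ^ j ≠ 1 → ∀ n ∈ N, Van (x ^ i * a ^ j * n) ∧ p ∣ orderOf (x ^ i * a ^ j * n)) :
    x ∈ Subgroup.zpowers a := by
  let B : Subgroup G :=
    { carrier := {g | ∃ i j : ℤ, g = x ^ i * a ^ j}
      mul_mem' := by
        rintro _ _ ⟨i, j, rfl⟩ ⟨k, l, rfl⟩
        refine ⟨i + k, j + l, ?_⟩
        have h1 : Commute (a ^ j) (x ^ k) := (show Commute x a from hxa).symm.zpow_zpow j k
        rw [zpow_add, zpow_add]
        calc x ^ i * a ^ j * (x ^ k * a ^ l) = x ^ i * (a ^ j * x ^ k) * a ^ l := by group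
          _ = x ^ i * (x ^ k * a ^ j) * a ^ l := by rw [h1.eq]
          _ = x ^ i * x ^ k * (a ^ j * a ^ l) := by group
      one_mem' := ⟨0, 0, by simp⟩
      inv_mem' := by
        rintro _ ⟨i, j, rfl⟩
        refine ⟨-i, -j, ?_⟩
        have h1 : Commute (x ^ i) (a ^ j) := (show Commute x a from hxa).zpow_zpow i j
        rw [mul_inv_rev, zpow_neg, zpow_neg]
        exact (h1.inv_inv).eq.symm }
  have hBmem : ∀ g, g ∈ B ↔ ∃ i j : ℤ, g = x ^ i * a ^ j := fun g => Iff.rfl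
  have hxB : x ∈ B := (hBmem x).2 ⟨1, 0, by simp⟩
  have haB : a ∈ B := (hBmem a).2 ⟨0, 1, by simp⟩
  have hcomm : ∀ g ∈ B, ∀ g' ∈ B, g * g' = g' * g := by
    rintro _ ⟨i, j, rfl⟩ _ ⟨k, l, rfl⟩
    have hc : Commute x a := hxa
    have h1 : Commute (x ^ i) (x ^ k * a ^ l) := ((Commute.refl x).zpow_zpow i k).mul_right (hc.zpow_zpow i l)
    have h2 : Commute (a ^ j) (x ^ k * a ^ l) := (hc.symm.zpow_zpow j k).mul_right ((Commute.refl a).zpow_zpow j l)
    exact (h1.mul_left h2).eq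
  have hexp : ∀ g ∈ B, g ^ p = 1 := by
    rintro _ ⟨i, j, rfl⟩
    have hc : Commute (x ^ i) (a ^ j) := (show Commute x a from hxa).zpow_zpow i j
    rw [hc.mul_pow, ← zpow_natCast, ← zpow_mul, mul_comm i, zpow_mul, zpow_natCast, hx, one_zpow, one_mul,
      ← zpow_natCast, ← zpow_mul, mul_comm j, zpow_mul, zpow_natCast, ha, one_zpow]
  have hNc : IsMulCommutative N := ⟨⟨fun a b => Subtype.ext (hNab a a.2 b b.2)⟩⟩
  have hcyc : IsCyclic B := by
    refine H1.Cyc.isCyclic_of_fpf_subgroup B N hN1 ?_ ?_ (Or.inl ?_)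
    · rw [Subgroup.normalizer_eq_top]; exact le_top
    · rintro _ ⟨i, j, rfl⟩ hne
      exact fpf h hNp (hv i j hne)
    · exact ⟨⟨fun a b => Subtype.ext (hcomm a a.2 b b.2)⟩⟩
  exact mem_zpowers_of_cyclic hcyc hexp haB ha1 hxB

/-- Elements witnessing that a nonabelian `p`-group has elements in the second centre. -/
theorem exists_second_center' {Q : Type*} [Group Q] [Finite Q] {p : ℕ} [hp : Fact p.Prime]
    (hQ : IsPGroup p Q) (hne : Subgroup.center Q ≠ ⊤) :
    ∃ x y a : Q, x ∉ Subgroup.center Q ∧ a ∈ Subgroup.center Q ∧ a ≠ 1 ∧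
      y⁻¹ * x * y = x * a ∧ ∀ w : Q, ∃ c ∈ Subgroup.center Q, w⁻¹ * x * w = x * c := by
  have hQ' : IsPGroup p (Q ⧸ Subgroup.center Q) := hQ.to_quotient _
  have : Nontrivial (Q ⧸ Subgroup.center Q) := QuotientGroup.nontrivial_iff.2 hne
  have := hQ'.center_nontrivial
  obtain ⟨z, hz⟩ := exists_ne (1 : Subgroup.center (Q ⧸ Subgroup.center Q))
  obtain ⟨x, hx⟩ := QuotientGroup.mk'_surjective (Subgroup.center Q) (z : Q ⧸ Subgroup.center Q)
  have hxc : x ∉ Subgroup.center Q := by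
    intro h
    apply hz
    apply Subtype.ext
    rw [← hx]
    exact (QuotientGroup.eq_one_iff x).2 h
  have hall : ∀ w : Q, x⁻¹ * w⁻¹ * x * w ∈ Subgroup.center Q := by
    intro y
    rw [← QuotientGroup.eq_one_iff]
    show QuotientGroup.mk' (Subgroup.center Q) (x⁻¹ * y⁻¹ * x * y) = 1
    have h1 := Subgroup.mem_center_iff.1 z.2 (QuotientGroup.mk' (Subgroup.center Q) y)
    rw [← hx] at h1
    rw [map_mul, map_mul, map_mul, map_inv, map_inv, mul_assoc, ← h1]
    group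
  obtain ⟨y, hy⟩ : ∃ y, ¬ y * x = x * y := by
    by_contra hcon
    push Not at hcon
    exact hxc (Subgroup.mem_center_iff.2 hcon)
  refine ⟨x, y, x⁻¹ * y⁻¹ * x * y, hxc, hall y, ?_, by group, fun w => ⟨_, hall w, by group⟩⟩
  intro h
  apply hy
  have h2 : x⁻¹ * y⁻¹ * x * y = (y * x)⁻¹ * (x * y) := by group
  rw [h2] at h
  exact (inv_mul_eq_one.1 h)

end two

end H80.VO1
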