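import Cfsg.Agent.Lib.H80.VO1

/-!
# Solvable groups in which all vanishing `p`-singular elements are `p`-elements, part 2
-/

set_option autoImplicit false

namespace H80.VO1

open Cfsg H85.VanP

universe u

theorem pow_zpow_eq {G : Type*} [Group G] {x : G} {p : ℕ} (hp : p.Prime) (hx : x ^ p = 1) (i : ℤ) :
    x ^ i = 1 ∨ ∃ k : ℤ, (x ^ i) ^ k = x := by
  by_cases hi : (p : ℤ) ∣ i
  · left
    obtain ⟨c, rfl⟩ := hi
    rw [zpow_mul, zpow_natCast, hx, one_zpow]
  · right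
    have h1 : IsCoprime i (p : ℤ) := by
      rw [Int.isCoprime_iff_gcd_eq_one, Int.gcd_comm]
      have := (Nat.Prime.coprime_iff_not_dvd hp (n := i.natAbs)).2 (fun h => hi (Int.natCast_dvd.2 h))
      simpa [Int.gcd, Nat.Coprime] using this
    obtain ⟨a, b, hab⟩ := h1
    refine ⟨a, ?_⟩
    have h2 : i * a = 1 - b * p := by linarith
    rw [← zpow_mul, h2, zpow_sub, zpow_one, mul_comm b, zpow_mul, zpow_natCast, hx, one_zpow, inv_one, mul_one]

theorem thmC (p : ℕ) [hp : Fact p.Prime] : ∀ (m : ℕ) (G : Type u) [Group G] [Finite G],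
    Nat.card G = m → Group.IsSolvable G → KK p G → ¬ p ^ 2 ∣ (pCore p G).index := by
  intro m
  induction m using Nat.strong_induction_on with
  | _ m ih =>
  intro G _ _ hm hs hKK
  have hquot : ∀ (N : Subgroup G) [N.Normal], N ≠ ⊥ → ¬ p ^ 2 ∣ (pCore p (G ⧸ N)).index := by
    intro N _ hN
    exact ih _ (by rw [← hm]; exact card_quot_lt N hN) (G ⧸ N) rfl inferInstance (hKK.quot N)
  by_cases hO : pCore p G = ⊥
  swap
  · have h1 := hquot (pCore p G) hO
    rw [H1.Cores.pCore_quotient_pCore, Subgroup.index_bot] at h1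
    exact h1
  rw [hO, Subgroup.index_bot]
  intro hd
  have hnt : Nontrivial G := by
    rw [← Finite.one_lt_card_iff_nontrivial]
    exact lt_of_lt_of_le (Nat.one_lt_pow two_ne_zero hp.out.one_lt)
      (Nat.le_of_dvd Nat.card_pos hd)
  obtain ⟨q, _, N, hN, hN1, _, hNc⟩ := H2.Solv.exists_normal_abelian_pgroup G hs
  have hNab : ∀ a ∈ N, ∀ b ∈ N, a * b = b * a := fun a ha b hb =>
    congrArg Subtype.val (hNc.is_comm.comm (⟨a, ha⟩ : N) ⟨b, hb⟩)
  have hNp := not_dvd_card_of_abelian (p := p) N hNab hO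
  have hcopN : (p ^ 2).Coprime (Nat.card N) :=
    Nat.Coprime.pow_left 2 ((Nat.Prime.coprime_iff_not_dvd hp.out).2 hNp)
  have h2 : p ^ 2 ∣ Nat.card (G ⧸ N) := by
    rw [Subgroup.card_eq_card_quotient_mul_card_subgroup N] at hd
    exact hcopN.dvd_of_dvd_mul_right hd
  have h3 : pCore p (G ⧸ N) ≠ ⊥ := by
    intro h4
    have h1 := hquot N hN1
    rw [h4, Subgroup.index_bot] at h1
    exact h1 h2
  set Z := Zq p N with hZdef
  have hZne : Z ≠ ⊥ := Zq_ne_bot p N h3
  have hZp : IsPGroup p Z := Zq_pgroup p N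
  set L := Z.comap (QuotientGroup.mk' N) with hL
  have hNL : N ≤ L := by
    intro n hn
    show QuotientGroup.mk' N n ∈ Z
    have : QuotientGroup.mk' N n = 1 := (QuotientGroup.eq_one_iff n).2 hn
    rw [this]; exact Subgroup.one_mem _
  have hmkn : ∀ (g : G) (n : G), n ∈ N → QuotientGroup.mk' N (g * n) = QuotientGroup.mk' N g := by
    intro g n hn
    rw [map_mul]
    have : QuotientGroup.mk' N n = 1 := (QuotientGroup.eq_one_iff n).2 hn
    rw [this, mul_one]
  obtain ⟨A, hAp, hAL, hLA, hAab, hAN⟩ := exists_compl N hNp Z hZp (Zq_comm p N)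
  have hvan : ∀ g : G, QuotientGroup.mk' N g ∈ Z → QuotientGroup.mk' N g ≠ 1 →
      Van g ∧ p ∣ orderOf g := fun g hg hg1 => section_van N hNab hO hg hg1
  obtain ⟨z0, hz0, hz01⟩ := exists_ne_one hZne
  obtain ⟨g0, hg0⟩ := QuotientGroup.mk'_surjective N z0
  -- A
  have hA1 : ∀ a ∈ A, a ≠ 1 → QuotientGroup.mk' N a ∈ Z ∧ QuotientGroup.mk' N a ≠ 1 := by
    intro a ha ha1
    exact ⟨hAL ha, fun h4 => ha1 (hAN a ha ((QuotientGroup.eq_one_iff a).1 h4))⟩
  have hAne : A ≠ ⊥ := by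
    intro h4
    obtain ⟨a, ha, n, hn, hl⟩ := hLA g0 (by
      show QuotientGroup.mk' N g0 ∈ Z
      rw [hg0]; exact hz0)
    rw [h4, Subgroup.mem_bot] at ha
    rw [ha, one_mul] at hl
    apply hz01
    rw [← hg0, hl]
    exact (QuotientGroup.eq_one_iff n).2 hn
  have hAexp : ∀ a ∈ A, a ^ p = 1 := by
    intro a ha
    by_contra hne
    have ha1 : a ≠ 1 := by rintro rfl; exact hne (one_pow p)
    have h4 := hA1 a ha ha1
    have h5 := hvan a h4.1 h4.2
    have h6 := hA1 (a ^ p) (pow_mem ha p) hne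
    exact hne (hKK.K2 a h5.1 h5.2 (hvan _ h6.1 h6.2).1)
  have hAord : ∀ a ∈ A, a ≠ 1 → orderOf a = p := by
    intro a ha ha1
    rcases (Nat.dvd_prime hp.out).1 (orderOf_dvd_of_pow_eq_one (hAexp a ha)) with h4 | h4
    · exact absurd (orderOf_eq_one_iff.1 h4) ha1
    · exact h4
  have hfpf : ∀ a ∈ A, a ≠ 1 → N ⊓ Subgroup.centralizer {a} = ⊥ := by
    intro a ha ha1
    refine fpf hKK hNp fun n hn => hvan (a * n) ?_ ?_
    · rw [hmkn a n hn]; exact (hA1 a ha ha1).1
    · rw [hmkn a n hn]; exact (hA1 a ha ha1).2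
  have hcyc : IsCyclic A := by
    refine H1.Cyc.isCyclic_of_fpf_subgroup A N hN1 ?_ hfpf (Or.inl ?_)
    · rw [Subgroup.normalizer_eq_top]; exact le_top
    · exact ⟨⟨fun a b => Subtype.ext (hAab a a.2 b b.2)⟩⟩
  obtain ⟨a, ha, ha1, hagen⟩ := zpowers_of_cyclic_exp (p := p) hcyc hAord hAne
  have hap : a ^ p = 1 := hAexp a ha
  have haZ := hA1 a ha ha1
  have hZgen : ∀ z ∈ Z, ∃ k : ℤ, (QuotientGroup.mk' N a) ^ k = z := by
    intro z hz
    obtain ⟨g, rfl⟩ := QuotientGroup.mk'_surjective N z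
    obtain ⟨b, hb, n, hn, hl⟩ := hLA g hz
    obtain ⟨k, rfl⟩ := hagen b hb
    exact ⟨k, by rw [hl, hmkn _ n hn, map_zpow]⟩
  have hordmk : orderOf (QuotientGroup.mk' N a) = p := by
    have h6 : orderOf (QuotientGroup.mk' N a) ∣ p := by
      rw [← hAord a ha ha1]; exact orderOf_map_dvd _ a
    rcases (Nat.dvd_prime hp.out).1 h6 with h7 | h7
    · exact absurd (orderOf_eq_one_iff.1 h7) haZ.2
    · exact h7
  have hcardZ : Nat.card Z = p := by
    have h4 : Z = Subgroup.zpowers (QuotientGroup.mk' N a) := by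
      apply le_antisymm
      · intro z hz
        obtain ⟨k, rfl⟩ := hZgen z hz
        exact Subgroup.zpow_mem _ (Subgroup.mem_zpowers _) k
      · rw [Subgroup.zpowers_le]; exact hAL ha
    rw [h4, Nat.card_zpowers, hordmk]
  -- Q is abelian
  have hQp : IsPGroup p (pCore p (G ⧸ N)) := H1.Cores.isPGroup_pCore p
  have hQZ : pCore p (G ⧸ N) ≤ Z := by
    by_contra hcon
    have hne : Subgroup.center (pCore p (G ⧸ N)) ≠ ⊤ := by
      intro h4
      apply hcon
      intro x hx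
      refine ⟨hx, Subgroup.mem_centralizer_iff.2 fun y hy => ?_⟩
      have h5 : (⟨x, hx⟩ : pCore p (G ⧸ N)) ∈ Subgroup.center (pCore p (G ⧸ N)) := by
        rw [h4]; exact Subgroup.mem_top _
      exact congrArg Subtype.val (Subgroup.mem_center_iff.1 h5 ⟨y, hy⟩)
    obtain ⟨x, y, b, hx, hb, hb1, hxy, hall⟩ := exists_second_center' hQp hne
    have hcZ : ∀ c : pCore p (G ⧸ N), c ∈ Subgroup.center (pCore p (G ⧸ N)) → (c : G ⧸ N) ∈ Z := by
      intro c hc
      refine ⟨c.2, Subgroup.mem_centralizer_iff.2 fun w hw => ?_⟩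
      exact congrArg Subtype.val (Subgroup.mem_center_iff.1 hc ⟨w, hw⟩)
    have hZc : ∀ c : pCore p (G ⧸ N), (c : G ⧸ N) ∈ Z → c ∈ Subgroup.center (pCore p (G ⧸ N)) := by
      intro c hc
      rw [Subgroup.mem_center_iff]
      intro w
      exact Subtype.ext (Subgroup.mem_centralizer_iff.1 hc.2 w w.2)
    have hZexp : ∀ z ∈ Z, z ^ p = 1 := by
      intro z hz
      obtain ⟨k, rfl⟩ := hZgen z hz
      rw [← zpow_natCast, ← zpow_mul, mul_comm, zpow_mul, zpow_natCast, ← map_pow, hap, map_one, one_zpow]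
    have hbZ : (b : G ⧸ N) ∈ Z := hcZ b hb
    have hb1' : (b : G ⧸ N) ≠ 1 := fun h => hb1 (Subtype.ext h)
    have hxy' : (y : G ⧸ N)⁻¹ * (x : G ⧸ N) * y = (x : G ⧸ N) * b := congrArg Subtype.val hxy
    have hyb : Commute (y : G ⧸ N) (b : G ⧸ N) := congrArg Subtype.val (Subgroup.mem_center_iff.1 hb y)
    have hxb : Commute (x : G ⧸ N) (b : G ⧸ N) := congrArg Subtype.val (Subgroup.mem_center_iff.1 hb x)
    have hxZ : (x : G ⧸ N) ∉ Z := fun h => hx (hZc x h)
    have hx1 : (x : G ⧸ N) ≠ 1 := fun h => hxZ (by rw [h]; exact Subgroup.one_mem _)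
    -- elements of the form x^i c with x^i ≠ 1
    have hvx : ∀ (w d : G ⧸ N), w ∈ pCore p (G ⧸ N) → (y : G ⧸ N)⁻¹ * w * y = w * d → d ∈ Z → d ≠ 1 → Van w := by
      intro w d hw hwd hd hd1
      refine van_of_second_center Z hcardZ (y := (y : G ⧸ N)) (a := d) hwd hd hd1 ?_
      exact (Subgroup.mem_centralizer_iff.1 hd.2 y y.2)
    -- x^p is central
    have hxp : (x : G ⧸ N) ^ p ∈ Z := by
      have h5 : x ^ p ∈ Subgroup.center (pCore p (G ⧸ N)) := by
        rw [Subgroup.mem_center_iff]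
        intro w
        obtain ⟨c, hc, hwc⟩ := hall w
        have hxc : Commute x c := Subgroup.mem_center_iff.1 hc x
        have hcp : c ^ p = 1 := Subtype.ext (hZexp _ (hcZ c hc))
        have h6 : w⁻¹ * x ^ p * w = x ^ p := by
          have h7 : w⁻¹ * x ^ p * w = (w⁻¹ * x * w) ^ p := by
            have := conj_pow (a := w⁻¹) (b := x) (i := p)
            rw [inv_inv] at this
            exact this.symm
          rw [h7, hwc, hxc.mul_pow, hcp, mul_one]
        calc w * x ^ p = w * (w⁻¹ * x ^ p * w) := by rw [h6]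
          _ = x ^ p * w := by group
      exact hcZ _ h5
    obtain ⟨x', hx'⟩ := QuotientGroup.mk'_surjective N (x : G ⧸ N)
    have hlift : ∀ g : G, Van (QuotientGroup.mk' N g) → QuotientGroup.mk' N g ∈ pCore p (G ⧸ N) →
        QuotientGroup.mk' N g ≠ 1 → Van g ∧ p ∣ orderOf g := by
      intro g hg hgQ hg1
      exact ⟨van_of_quot N hg, (dvd_orderOf_of_pgroup hQp hgQ hg1).trans (orderOf_map_dvd _ g)⟩
    have hxpow : (x : G ⧸ N) ^ p = 1 := by
      by_contra hne1
      have h5 : Van (x' ^ p) := (hvan _ (by rw [map_pow, hx']; exact hxp) (by rw [map_pow, hx']; exact hne1)).1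
      have h6 := hlift x' (by rw [hx']; exact hvx _ _ x.2 hxy' hbZ hb1') (by rw [hx']; exact x.2)
        (by rw [hx']; exact hx1)
      have h7 := hKK.K2 x' h6.1 h6.2 h5
      apply hne1
      rw [← hx', ← map_pow, h7, map_one]
    -- commuting lifts
    set z := QuotientGroup.mk' N a with hz
    have hxz : Commute (x : G ⧸ N) z := Subgroup.mem_centralizer_iff.1 haZ.1.2 x x.2
    have hzQ : z ∈ pCore p (G ⧸ N) := haZ.1.1
    have hzp : z ^ p = 1 := hZexp z haZ.1
    let X : Subgroup (G ⧸ N) :=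
      { carrier := {g | ∃ i j : ℤ, g = (x : G ⧸ N) ^ i * z ^ j}
        mul_mem' := by
          rintro _ _ ⟨i, j, rfl⟩ ⟨k, l, rfl⟩
          refine ⟨i + k, j + l, ?_⟩
          have h1 : Commute (z ^ j) ((x : G ⧸ N) ^ k) := hxz.symm.zpow_zpow j k
          rw [zpow_add, zpow_add]
          calc (x : G ⧸ N) ^ i * z ^ j * ((x : G ⧸ N) ^ k * z ^ l)
              = (x : G ⧸ N) ^ i * (z ^ j * (x : G ⧸ N) ^ k) * z ^ l := by simp only [mul_assoc]
            _ = (x : G ⧸ N) ^ i * ((x : G ⧸ N) ^ k * z ^ j) * z ^ l := by rw [h1.eq]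
            _ = (x : G ⧸ N) ^ i * (x : G ⧸ N) ^ k * (z ^ j * z ^ l) := by simp only [mul_assoc]
        one_mem' := ⟨0, 0, by simp⟩
        inv_mem' := by
          rintro _ ⟨i, j, rfl⟩
          refine ⟨-i, -j, ?_⟩
          have h1 : Commute ((x : G ⧸ N) ^ i) (z ^ j) := hxz.zpow_zpow i j
          rw [mul_inv_rev, zpow_neg, zpow_neg]
          exact (h1.inv_inv).eq.symm }
    have hXmem : ∀ g, g ∈ X ↔ ∃ i j : ℤ, g = (x : G ⧸ N) ^ i * z ^ j := fun g => Iff.rfl
    have hXQ : X ≤ pCore p (G ⧸ N) := by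
      rintro _ ⟨i, j, rfl⟩
      exact mul_mem (zpow_mem x.2 i) (zpow_mem hzQ j)
    obtain ⟨B, hBp, hBX, hXB, hBab, hBN⟩ := exists_compl N hNp X (hQp.to_le hXQ) (by
      rintro _ ⟨i, j, rfl⟩ _ ⟨k, l, rfl⟩
      have h1 : Commute ((x : G ⧸ N) ^ i) ((x : G ⧸ N) ^ k * z ^ l) :=
        ((Commute.refl (x : G ⧸ N)).zpow_zpow i k).mul_right (hxz.zpow_zpow i l)
      have h2 : Commute (z ^ j) ((x : G ⧸ N) ^ k * z ^ l) :=
        (hxz.symm.zpow_zpow j k).mul_right ((Commute.refl z).zpow_zpow j l)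
      exact (h1.mul_left h2).eq)
    -- lifts of x and z in B
    have hmem : ∀ w ∈ X, ∃ c ∈ B, QuotientGroup.mk' N c = w := by
      intro w hw
      obtain ⟨g, rfl⟩ := QuotientGroup.mk'_surjective N w
      obtain ⟨c, hc, n, hn, hl⟩ := hXB g hw
      exact ⟨c, hc, by rw [hl, hmkn c n hn]⟩
    obtain ⟨xb, hxbB, hxbe⟩ := hmem x ((hXmem _).2 ⟨1, 0, by simp⟩)
    obtain ⟨zb, hzbB, hzbe⟩ := hmem z ((hXmem _).2 ⟨0, 1, by simp⟩)
    have hBpow : ∀ c ∈ B, c ^ p = 1 := by
      intro c hc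
      apply hBN _ (pow_mem hc p)
      rw [← QuotientGroup.eq_one_iff]
      show QuotientGroup.mk' N (c ^ p) = 1
      obtain ⟨i, j, hij⟩ := hBX hc
      have hc2 : Commute ((x : G ⧸ N) ^ i) (z ^ j) := hxz.zpow_zpow i j
      rw [map_pow, hij, hc2.mul_pow, ← zpow_natCast, ← zpow_mul, mul_comm i, zpow_mul, zpow_natCast, hxpow, one_zpow,
        one_mul, ← zpow_natCast, ← zpow_mul, mul_comm j, zpow_mul, zpow_natCast, hzp, one_zpow]
    have hzb1 : zb ≠ 1 := by
      rintro rfl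
      rw [map_one] at hzbe
      exact haZ.2 hzbe.symm
    have hfin := no_rank_two hKK hNp hNab hN1 (hBab xb hxbB zb hzbB) (hBpow xb hxbB) (hBpow zb hzbB) hzb1 (by
      intro i j hne n hn
      have h5 : QuotientGroup.mk' N (xb ^ i * zb ^ j * n) = (x : G ⧸ N) ^ i * z ^ j := by
        rw [hmkn _ n hn, map_mul, map_zpow, map_zpow, hxbe, hzbe]
      have h6 : (x : G ⧸ N) ^ i * z ^ j ≠ 1 := by
        intro h7
        apply hne
        apply hBN _ (mul_mem (zpow_mem hxbB i) (zpow_mem hzbB j))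
        rw [← QuotientGroup.eq_one_iff]
        show QuotientGroup.mk' N (xb ^ i * zb ^ j) = 1
        rw [map_mul, map_zpow, map_zpow, hxbe, hzbe, h7]
      have h6Q : (x : G ⧸ N) ^ i * z ^ j ∈ pCore p (G ⧸ N) := hXQ ((hXmem _).2 ⟨i, j, rfl⟩)
      by_cases h8 : (x : G ⧸ N) ^ i = 1
      · apply hvan
        · rw [h5, h8, one_mul]; exact zpow_mem haZ.1 j
        · rw [h5]; exact h6
      · apply hlift
        · rw [h5]
          have hconj : (y : G ⧸ N)⁻¹ * (x : G ⧸ N) ^ i * y = (x : G ⧸ N) ^ i * (b : G ⧸ N) ^ i := by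
            have h9 : (y : G ⧸ N)⁻¹ * (x : G ⧸ N) ^ i * y = ((y : G ⧸ N)⁻¹ * (x : G ⧸ N) * y) ^ i := by
              have := conj_zpow (a := (y : G ⧸ N)⁻¹) (b := (x : G ⧸ N)) (i := i)
              rw [inv_inv] at this
              exact this.symm
            rw [h9, hxy', hxb.mul_zpow]
          refine hvx _ ((b : G ⧸ N) ^ i) h6Q ?_ (zpow_mem hbZ i) ?_
          · have hyz : Commute (y : G ⧸ N) (z ^ j) :=
              Commute.zpow_right (Subgroup.mem_centralizer_iff.1 haZ.1.2 y y.2) j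
            have hbz : Commute ((b : G ⧸ N) ^ i) (z ^ j) :=
              Commute.zpow_zpow (Subgroup.mem_centralizer_iff.1 haZ.1.2 b b.2) i j
            calc (y : G ⧸ N)⁻¹ * ((x : G ⧸ N) ^ i * z ^ j) * y
                = (y : G ⧸ N)⁻¹ * (x : G ⧸ N) ^ i * (z ^ j * y) := by simp only [mul_assoc]
              _ = (y : G ⧸ N)⁻¹ * (x : G ⧸ N) ^ i * (y * z ^ j) := by rw [hyz.eq]
              _ = ((y : G ⧸ N)⁻¹ * (x : G ⧸ N) ^ i * y) * z ^ j := by simp only [mul_assoc]
              _ = (x : G ⧸ N) ^ i * ((b : G ⧸ N) ^ i * z ^ j) := by rw [hconj]; simp only [mul_assoc]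
              _ = (x : G ⧸ N) ^ i * (z ^ j * (b : G ⧸ N) ^ i) := by rw [hbz.eq]
              _ = (x : G ⧸ N) ^ i * z ^ j * (b : G ⧸ N) ^ i := by simp only [mul_assoc]
          · intro h9
            rcases pow_zpow_eq hp.out (hZexp b hbZ) i with h10 | ⟨k, hk⟩
            · -- b^i = 1 implies p ∣ i
              have h11 : (orderOf (b : G ⧸ N) : ℤ) ∣ i := orderOf_dvd_iff_zpow_eq_one.2 h9
              have h12 : orderOf (b : G ⧸ N) = p := by
                rcases (Nat.dvd_prime hp.out).1 (orderOf_dvd_of_pow_eq_one (hZexp b hbZ)) with h13 | h13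
                · exact absurd (orderOf_eq_one_iff.1 h13) hb1'
                · exact h13
              rw [h12] at h11
              obtain ⟨c, rfl⟩ := h11
              apply h8
              rw [zpow_mul, zpow_natCast, hxpow, one_zpow]
            · rw [h9, one_zpow] at hk
              exact hb1' hk.symm
        · rw [h5]; exact h6Q
        · rw [h5]; exact h6)
    apply hxZ
    obtain ⟨k, hk⟩ := Subgroup.mem_zpowers_iff.1 hfin
    rw [← hxbe, ← hk, map_zpow, hzbe]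
    exact zpow_mem haZ.1 k
  -- G / L
  have hLn : L.Normal := inferInstance
  have hcoreL : pCore p (G ⧸ L) = ⊥ := by
    set R := (pCore p (G ⧸ L)).comap (QuotientGroup.mk' L) with hR
    have hRn : (R.map (QuotientGroup.mk' N)).Normal :=
      Subgroup.Normal.map inferInstance _ (QuotientGroup.mk'_surjective N)
    have hRp : IsPGroup p (R.map (QuotientGroup.mk' N)) := by
      rintro ⟨_, ⟨r, hr, rfl⟩⟩
      obtain ⟨k, hk⟩ := (H1.Cores.isPGroup_pCore (G := G ⧸ L) p) ⟨QuotientGroup.mk' L r, hr⟩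
      have hk' : (QuotientGroup.mk' L r) ^ p ^ k = 1 := congrArg Subtype.val hk
      rw [← map_pow] at hk'
      have h4 : r ^ p ^ k ∈ L := (QuotientGroup.eq_one_iff _).1 hk'
      obtain ⟨j, hj⟩ := hZp ⟨QuotientGroup.mk' N (r ^ p ^ k), h4⟩
      have hj' : (QuotientGroup.mk' N (r ^ p ^ k)) ^ p ^ j = 1 := congrArg Subtype.val hj
      refine ⟨k + j, Subtype.ext ?_⟩
      show (QuotientGroup.mk' N r) ^ p ^ (k + j) = 1
      rw [pow_add, pow_mul, ← map_pow]
      exact hj'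
    have h4 := (H1.Cores.le_pCore hRn hRp).trans hQZ
    rw [Subgroup.eq_bot_iff_forall]
    intro z hz
    obtain ⟨r, rfl⟩ := QuotientGroup.mk'_surjective L z
    exact (QuotientGroup.eq_one_iff r).2 (h4 ⟨r, hz, rfl⟩)
  have hcardL : Nat.card L = Nat.card N * Nat.card Z := H1.Cores.card_comap_mk' N Z
  have hdL : p ∣ Nat.card (G ⧸ L) := by
    rw [Subgroup.card_eq_card_quotient_mul_card_subgroup L, hcardL, hcardZ, pow_two, ← mul_assoc] at hd
    have h4 : p ∣ Nat.card (G ⧸ L) * Nat.card N := Nat.dvd_of_mul_dvd_mul_right hp.out.pos hd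
    exact (hp.out.dvd_mul.1 h4).resolve_right hNp
  obtain ⟨M', T', hM', hT', hMT', hTM', hMp', hk', hv'⟩ := exists_section p _ (G ⧸ L) rfl inferInstance hcoreL hdL
  set M := M'.comap (QuotientGroup.mk' L) with hM
  set T := T'.comap (QuotientGroup.mk' L) with hT
  have hvT : ∀ t ∈ T, t ∉ M → Van t := fun t ht htM => van_of_quot L (hv' _ ht htM)
  have hpT : ∀ t ∈ T, ∃ k : ℕ, t ^ p ^ k ∈ M := by
    intro t ht
    obtain ⟨k, hk⟩ := hk' _ ht
    exact ⟨k, by rw [hM, Subgroup.mem_comap, map_pow]; exact hk⟩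
  have hsing : ∀ t ∈ T, t ∉ M → p ∣ orderOf t := by
    intro t ht htM
    by_contra hnd
    obtain ⟨k, hk⟩ := hpT t ht
    have h4 : (p ^ k).Coprime (orderOf t) :=
      Nat.Coprime.pow_left _ ((Nat.Prime.coprime_iff_not_dvd hp.out).2 hnd)
    apply htM
    obtain ⟨u, hu⟩ := exists_pow_eq_self_of_coprime h4
    rw [← hu]
    exact pow_mem hk u
  have hLM : L ≤ M := by
    intro l hl
    show QuotientGroup.mk' L l ∈ M'
    have : QuotientGroup.mk' L l = 1 := (QuotientGroup.eq_one_iff l).2 hl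
    rw [this]; exact Subgroup.one_mem _
  have haL : a ∈ L := hAL ha
  -- Sylow subgroup containing a
  have hza : IsPGroup p (Subgroup.zpowers a) := by
    apply IsPGroup.of_card (n := 1)
    rw [Nat.card_zpowers, pow_one, hAord a ha ha1]
  obtain ⟨P, hP⟩ := hza.exists_le_sylow
  have haP : a ∈ (P : Subgroup G) := hP (Subgroup.mem_zpowers a)
  -- elements of P in M are powers of a
  have hPL : ∀ g ∈ (P : Subgroup G), g ∈ L → g ∈ Subgroup.zpowers a := by
    -- L ∩ P has order p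
    have h5 : Nat.card (L ⊓ (P : Subgroup G) : Subgroup G) ∣ p := by
      obtain ⟨k, hk⟩ := IsPGroup.iff_card.1 (P.isPGroup'.to_le (inf_le_right : L ⊓ (P : Subgroup G) ≤ P))
      have h6 : Nat.card (L ⊓ (P : Subgroup G) : Subgroup G) ∣ Nat.card L := Subgroup.card_dvd_of_le inf_le_left
      rw [hcardL, hcardZ] at h6
      rw [hk] at h6 ⊢
      refine Nat.Coprime.dvd_of_dvd_mul_left ?_ h6
      exact Nat.Coprime.pow_left _ ((Nat.Prime.coprime_iff_not_dvd hp.out).2 hNp)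
    intro g hgP hgL
    have h6 : Subgroup.zpowers a ≤ L ⊓ (P : Subgroup G) := by
      rw [Subgroup.zpowers_le]; exact ⟨haL, haP⟩
    have h7 : Nat.card (L ⊓ (P : Subgroup G) : Subgroup G) ≤ Nat.card (Subgroup.zpowers a) := by
      rw [Nat.card_zpowers, hAord a ha ha1]
      exact Nat.le_of_dvd hp.out.pos h5
    rw [Subgroup.eq_of_le_of_card_ge h6 h7]
    exact ⟨hgL, hgP⟩
  have hPM : ∀ g ∈ (P : Subgroup G), g ∈ M → g ∈ L := by
    intro g hgP hgM
    obtain ⟨k, hk⟩ := P.isPGroup' ⟨g, hgP⟩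
    have hk1 : g ^ p ^ k = 1 := congrArg Subtype.val hk
    have h5 : orderOf (QuotientGroup.mk' L g) ∣ p ^ k := by
      apply orderOf_dvd_of_pow_eq_one
      rw [← map_pow, hk1, map_one]
    have h6 : orderOf (QuotientGroup.mk' L g) ∣ Nat.card M' := by
      have hgM2 : QuotientGroup.mk' L g ∈ M' := hgM
      rw [← Subgroup.orderOf_mk _ hgM2]; exact orderOf_dvd_natCard _
    have h7 := Nat.eq_one_of_dvd_coprimes
      (Nat.Coprime.pow_left k ((Nat.Prime.coprime_iff_not_dvd hp.out).2 hMp')) h5 h6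
    exact (QuotientGroup.eq_one_iff g).1 (orderOf_eq_one_iff.1 h7)
  -- element of P in T outside M
  obtain ⟨x0, hx0P, hx0T, hx0M⟩ : ∃ x0 ∈ (P : Subgroup G), x0 ∈ T ∧ x0 ∉ M := by
    obtain ⟨t', ht', htM'⟩ := SetLike.not_le_iff_exists.1 hTM'
    obtain ⟨t, rfl⟩ := QuotientGroup.mk'_surjective L t'
    -- p-part of t
    obtain ⟨k, hk⟩ := hpT t ht'
    have hcop : (p ^ k).Coprime (ordCompl[p] (Nat.card G)) :=
      Nat.Coprime.pow_left _ (Nat.coprime_ordCompl hp.out Nat.card_pos.ne')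
    set c := ordCompl[p] (Nat.card G) with hc
    have h5 : (t ^ c) ∉ M := by
      intro h6
      apply htM'
      show t ∈ M
      have h7 : ((p ^ k : ℕ) : ℤ) * ((p ^ k : ℕ) : ℤ).gcdA c + c * ((p ^ k : ℕ) : ℤ).gcdB c = 1 := by
        have := Int.gcd_eq_gcd_ab ((p ^ k : ℕ) : ℤ) (c : ℤ)
        rw [Int.gcd_natCast_natCast, hcop] at this
        simpa using this.symm
      have h8 : t = (t ^ (p ^ k)) ^ (((p ^ k : ℕ) : ℤ).gcdA c) * (t ^ c) ^ (((p ^ k : ℕ) : ℤ).gcdB c) := by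
        rw [← zpow_natCast, ← zpow_natCast t c, ← zpow_mul, ← zpow_mul, ← zpow_add, h7, zpow_one]
      rw [h8]
      exact mul_mem (zpow_mem hk _) (zpow_mem h6 _)
    have h6 : IsPGroup p (Subgroup.zpowers (t ^ c)) := by
      have h7 : (t ^ c) ^ p ^ (Nat.card G).factorization p = 1 := by
        rw [← pow_mul, mul_comm, hc, Nat.ordProj_mul_ordCompl_eq_self]
        exact pow_card_eq_one'
      obtain ⟨j, _, hj⟩ := (Nat.dvd_prime_pow hp.out).1 (orderOf_dvd_of_pow_eq_one h7)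
      exact IsPGroup.of_card (n := j) (by rw [Nat.card_zpowers, hj])
    obtain ⟨P', hP'⟩ := h6.exists_le_sylow
    obtain ⟨g, hg⟩ := MulAction.exists_smul_eq G P' P
    refine ⟨g * (t ^ c) * g⁻¹, ?_, ?_, ?_⟩
    · rw [← hg]
      exact Subgroup.smul_mem_pointwise_smul (t ^ c) (MulAut.conj g) (P' : Subgroup G) (hP' (Subgroup.mem_zpowers _))
    · exact (inferInstance : T.Normal).conj_mem _ (pow_mem ht' c) g
    · intro h7
      apply h5
      have h8 := (inferInstance : M.Normal).conj_mem _ h7 g⁻¹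
      have h9 : g⁻¹ * (g * t ^ c * g⁻¹) * g⁻¹⁻¹ = t ^ c := by group
      rwa [h9] at h8
  -- make x^p ∈ M
  obtain ⟨x, hxP, hxT, hxM, hxpM⟩ : ∃ x ∈ (P : Subgroup G), x ∈ T ∧ x ∉ M ∧ x ^ p ∈ M := by
    obtain ⟨k, hk⟩ := hpT x0 hx0T
    classical
    have hex : ∃ k : ℕ, x0 ^ p ^ k ∈ M := ⟨k, hk⟩
    set j := Nat.find hex with hj
    have hj1 : x0 ^ p ^ j ∈ M := Nat.find_spec hex
    have hj0 : j ≠ 0 := by
      intro h0
      rw [h0, pow_zero, pow_one] at hj1
      exact hx0M hj1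
    refine ⟨x0 ^ p ^ (j - 1), pow_mem hx0P _, pow_mem hx0T _, Nat.find_min hex (by omega), ?_⟩
    rw [← pow_mul, ← pow_succ, Nat.sub_add_cancel (Nat.pos_of_ne_zero hj0)]
    exact hj1
  have hxp1 : x ^ p = 1 := by
    by_contra hne
    have h5 : x ^ p ∈ Subgroup.zpowers a := hPL _ (pow_mem hxP p) (hPM _ (pow_mem hxP p) hxpM)
    have h6 : x ^ p ∈ A := (Subgroup.zpowers_le.2 ha) h5
    have h7 := hA1 _ h6 hne
    exact hne (hKK.K2 x (hvT x hxT hxM) (hsing x hxT hxM) (hvan _ h7.1 h7.2).1)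
  -- x commutes with a
  have hconj : x * a * x⁻¹ ∈ Subgroup.zpowers a :=
    hPL _ (mul_mem (mul_mem hxP haP) (inv_mem hxP)) (hLn.conj_mem a haL x)
  have hcomm : x * a = a * x := by
    obtain ⟨k, hk⟩ := Subgroup.mem_zpowers_iff.1 hconj
    have h5 : ∀ i : ℕ, x ^ i * a * (x ^ i)⁻¹ = a ^ (k ^ i) := by
      intro i
      induction i with
      | zero => simp
      | succ i ih =>
        have h6 : x ^ (i + 1) * a * (x ^ (i + 1))⁻¹ = x * (x ^ i * a * (x ^ i)⁻¹) * x⁻¹ := by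
          rw [pow_succ']; group
        rw [h6, ih]
        have h7 : x * a ^ (k ^ i) * x⁻¹ = (x * a * x⁻¹) ^ (k ^ i) := (conj_zpow).symm
        rw [h7, ← hk, ← zpow_mul, pow_succ, mul_comm]
    have h6 := h5 p
    rw [hxp1, one_mul, inv_one, mul_one] at h6
    have h7 : a ^ (k ^ p - 1) = 1 := by
      rw [zpow_sub, ← h6, zpow_one, mul_inv_cancel]
    have h8 : (p : ℤ) ∣ k ^ p - 1 := by
      have h8' := orderOf_dvd_iff_zpow_eq_one.2 h7
      rw [hAord a ha ha1] at h8'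
      exact h8'
    have h9 : (p : ℤ) ∣ k - 1 := by
      have h10 : ((k ^ p - 1 : ℤ) : ZMod p) = 0 := (ZMod.intCast_zmod_eq_zero_iff_dvd _ p).2 h8
      apply (ZMod.intCast_zmod_eq_zero_iff_dvd _ p).1
      push_cast at h10 ⊢
      rwa [ZMod.pow_card] at h10
    have h10 : a ^ (k - 1) = 1 := by
      apply orderOf_dvd_iff_zpow_eq_one.1
      rw [hAord a ha ha1]; exact h9
    have h11 : a ^ k = a := by
      have : a ^ k = a ^ (k - 1) * a := by rw [← zpow_add_one]; congr 1; ring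
      rw [this, h10, one_mul]
    rw [h11] at hk
    calc x * a = (x * a * x⁻¹) * x := by group
      _ = a * x := by rw [← hk]
  have hfin := no_rank_two hKK hNp hNab hN1 hcomm hxp1 hap ha1 (by
    intro i j hne n hn
    rcases pow_zpow_eq hp.out hxp1 i with h5 | ⟨k, hk⟩
    · rw [h5, one_mul] at hne ⊢
      have h6 := hA1 (a ^ j) (zpow_mem ha j) hne
      apply hvan
      · rw [hmkn _ n hn]; exact h6.1
      · rw [hmkn _ n hn]; exact h6.2
    · have h6 : x ^ i * a ^ j * n ∈ T := by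
        refine mul_mem (mul_mem (zpow_mem hxT i) (zpow_mem ?_ j)) ?_
        · exact (hLM.trans (Subgroup.comap_mono hMT')) haL
        · exact ((hNL.trans hLM).trans (Subgroup.comap_mono hMT')) hn
      have h7 : x ^ i * a ^ j * n ∉ M := by
        intro h8
        have h9 : x ^ i ∈ M := by
          have h10 := mul_mem h8 (inv_mem (hLM (mul_mem (zpow_mem haL j) (hNL hn))))
          have h11 : x ^ i * a ^ j * n * (a ^ j * n)⁻¹ = x ^ i := by group
          rwa [h11] at h10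
        apply hxM
        rw [← hk]
        exact zpow_mem h9 k
      exact ⟨hvT _ h6 h7, hsing _ h6 h7⟩)
  apply hxM
  exact hLM ((Subgroup.zpowers_le.2 haL) hfin)

end H80.VO1
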